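import Cfsg.Agent.L34S.A
import Cfsg.Agent.BG.S12Aux
import Cfsg.Agent.BG.S1c

/-! A group with a frame `Fr T A B`, `A` normal and `O(G) = 1` embeds in `PGL₃(4)` as a group of affine maps of
`A ≅ F₄²` (`Fr.aff`). -/

set_option autoImplicit false
set_option linter.unusedSectionVars false

namespace Cfsg.Agent.L34S

open Cfsg.Agent.BG Cfsg.Agent.CIT Subgroup

variable {G : Type*} [Group G] [Finite G] {T A B W X : Subgroup G} {a b g : G}

theorem four_elts {F : Type*} [Field F] [Fintype F] (hF : Fintype.card F = 4) :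
    (∀ a : F, a + a = 0) ∧ ∃ w : F, w * w = w + 1 ∧ w ≠ 0 ∧ w ≠ 1 ∧ ∀ c : F, c = 0 ∨ c = 1 ∨ c = w ∨ c = w + 1 := by
  classical
  have h2 : (2 : F) = 0 := by
    have := FiniteField.cast_card_eq_zero F
    rw [hF] at this
    exact pow_eq_zero_iff (n := 2) two_ne_zero |>.1 (by rw [← this]; norm_num)
  refine ⟨fun a => by rw [← two_mul, h2, zero_mul], ?_⟩
  obtain ⟨w, -, hw⟩ := Finset.exists_mem_notMem_of_card_lt_card (s := ({0, 1} : Finset F)) (t := Finset.univ)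
    (Finset.card_le_two.trans_lt (by simp [hF]))
  simp only [Finset.mem_insert, Finset.mem_singleton, not_or] at hw
  have k : ∀ c : F, c ≠ 0 → c ≠ 1 → c * c = c + 1 := fun c h0 h1 => by
    have := FiniteField.pow_card_sub_one_eq_one c h0
    rw [hF] at this
    exact mul_left_cancel₀ (sub_ne_zero.2 h1) (by linear_combination this - (c * c - 1) * h2)
  refine ⟨w, k w hw.1 hw.2, hw.1, hw.2, fun c => ?_⟩
  by_cases h0 : c = 0
  · exact .inl h0
  by_cases h1 : c = 1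
  · exact .inr (.inl h1)
  have : (c - w) * (c - (w + 1)) = 0 := by
    linear_combination k c h0 h1 + k w hw.1 hw.2 + (1 + w - c * w) * h2
  exact .inr (.inr ((mul_eq_zero.1 this).imp sub_eq_zero.1 sub_eq_zero.1))

theorem lin_of_fpf {F : Type*} [Field F] [Fintype F] (hF : Fintype.card F = 4) (m : F →+ F)
    (h0 : ∀ t, m t = 0 → t = 0) (h1 : ∀ t, m t = t → t = 0) (t : F) : m t = m 1 * t := by
  obtain ⟨aa, w, ww, w0, w1, hw⟩ := four_elts hF
  have w2 : w + 1 ≠ 0 := fun e => w1 (by linear_combination e - aa 1)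
  have k : m w = m 1 * w := by
    have e := map_add m w 1
    rcases hw (m 1) with a | a | a | a
    · exact absurd (h0 _ a) one_ne_zero
    · exact absurd (h1 _ a) one_ne_zero
    all_goals rcases hw (m w) with b | b | b | b
    all_goals first
      | exact absurd (h0 _ b) w0
      | exact absurd (h1 _ b) w0
      | (refine absurd (h1 _ ?_) w2; rw [e, a, b, add_comm]; done)
      | (refine absurd (h0 _ ?_) w2; rw [e, a, b, aa]; done)
      | (rw [a, b]; linear_combination -ww)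
      | (rw [a, b]; linear_combination -ww - aa w)
  rcases hw t with rfl | rfl | rfl | rfl <;> simp [k, mul_add]

theorem scal_of_lines {F : Type*} [Field F] (τ : F × F →+ F × F) (h0 : ∀ v, v.2 = 0 → (τ v).2 = 0)
    (hc : ∀ c v, v.1 = c * v.2 → (τ v).1 = c * (τ v).2) : ∃ l : F, ∀ v, τ v = l • v := by
  have e : ∀ s t, τ (s, t) = ((τ (s, 0)).1, (τ (0, t)).2) := fun s t => by
    rw [show (s, t) = (s, 0) + (0, t) by simp, map_add]
    exact Prod.ext (by simpa using hc 0 (0, t) (by simp)) (by simpa using h0 (s, 0) rfl)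
  refine ⟨(τ (0, 1)).2, fun ⟨s, t⟩ => ?_⟩
  have k : ∀ s, (τ (s, 0)).1 = (τ (0, 1)).2 * s := fun s => by
    have := hc s (s, 1) (by simp)
    rw [e] at this
    rw [mul_comm]; exact this
  have k2 := hc 1 (t, t) (by simp)
  rw [e] at k2
  rw [e, k]
  exact Prod.ext rfl (by simpa [k] using k2.symm)

namespace Fr
variable (h : Fr T A B)
include h

theorem centA [A.Normal] (hO : oddCore G = ⊥) : C[A] = A := by
  have := Nat.fact_prime_two
  have n : C[A] ⊴ ⊤ := ⟨le_top, norms_cent (norm_of_normal A ⊤)⟩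
  have s := Sylow_setI_normal n h.syl
  obtain ⟨a, ha, hB⟩ := SetLike.not_le_iff_exists.1 h.nle
  rw [show C[A] ⊓ T = A from le_antisymm (fun t ht => h.cenA ha hB ht.2 (mem_cent.1 ht.1 a ha).symm)
    (le_inf (EA.cent h.eA) h.AT)] at s
  obtain ⟨K, hK⟩ := SchurZassenhaus_split ⟨s.le, norm_of_normal A _⟩ s.coprime
  have d : Dprod A K C[A] := ⟨hK.sup, hK.ler, hK.inf⟩
  have k : K ≤ Op' 2 ⊤ := (pcore_max d.normalr (compl_pHall hK.compl s).pi).trans (pcoreS_normal _ n)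
  rw [Op'_top, show pPrimeCore 2 G = ⊥ from hO, le_bot_iff] at k
  have := hK.sup
  rw [k, sup_bot_eq] at this
  exact this.symm

theorem exists_compl [A.Normal] : ∃ L, Sdprod A L ⊤ := by
  have := Nat.fact_prime_two
  obtain ⟨K, hK⟩ := abelem_splits (ea_iff.2 h.eB) (inf_le_right : A ⊓ B ≤ B)
  refine s12_Gaschutz (normal_top A) (abelian_of_cent (EA.cent h.eA)) h.AT le_top
    (h.syl.coprime.coprime_dvd_left (card_dvd_of_le h.AT)) (A := K) ?_ ?_
  · rw [← h.sup, ← hK.sup, ← sup_assoc, sup_inf_self]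
  · rw [← hK.inf, inf_assoc, inf_eq_right.2 hK.ler]

theorem conj_eq (hW : Dprod (A ⊓ B) W A) (ha : a ∈ A) (hB : a ∉ B) : ∃ b ∈ B, a ∈ BG.cj b W := by
  obtain ⟨z, hz, y, hy, rfl⟩ := hW.sdprod.mem ha
  obtain ⟨b, hb, e⟩ := h.surj (hW.ler hy) (fun c => hB (mul_mem hz.2 c)) hz
  refine ⟨b, hb, mem_cj'.2 ⟨y, hy, ?_⟩⟩
  rw [← h.iA hz.1, ← e]; group

theorem exists_spread [A.Normal] (hO : oddCore G = ⊥) : ∃ W, Dprod (A ⊓ B) W A ∧
    ∀ g X, (X = A ⊓ B ∨ ∃ b ∈ B, X = BG.cj b W) →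
      BG.cj g X = A ⊓ B ∨ ∃ b ∈ B, BG.cj g X = BG.cj b W := by
  have := Nat.fact_prime_two
  have nA : ∀ g, g ∈ N[A] := fun g => norm_of_normal A ⊤ (mem_top g)
  by_cases hZ : ∀ g, BG.cj g (A ⊓ B) = A ⊓ B
  · have nZ : ∀ g, g ∈ N[A ⊓ B] := fun g => mem_norm.2 (hZ g)
    let M : Subgroup G :=
      { carrier := {g | (∀ z ∈ A ⊓ B, g * z * g⁻¹ = z) ∧ ∀ a ∈ A, g * a * g⁻¹ * a⁻¹ ∈ A ⊓ B}
        one_mem' := ⟨by simp, by simp⟩
        mul_mem' := fun {x y} hx hy => ⟨fun z hz => by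
          rw [show x * y * z * (x * y)⁻¹ = x * (y * z * y⁻¹) * x⁻¹ by group, hy.1 z hz, hx.1 z hz], fun a ha => by
          rw [show x * y * a * (x * y)⁻¹ * a⁻¹ = x * (y * a * y⁻¹ * a⁻¹) * x⁻¹ * (x * a * x⁻¹ * a⁻¹) by group]
          exact mul_mem (conj_mem_of_norm (nZ x) (hy.2 a ha)) (hx.2 a ha)⟩
        inv_mem' := fun {x} hx => ⟨fun z hz => by
          nth_rewrite 1 [← hx.1 z hz]; group, fun a ha => by
          rw [show x⁻¹ * a * x⁻¹⁻¹ * a⁻¹ = x⁻¹ * (x * a * x⁻¹ * a⁻¹)⁻¹ * x by group]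
          exact conj_mem_of_norm' (nZ x) (inv_mem (hx.2 a ha))⟩ }
    have TM : T ≤ M := by
      refine h.sup ▸ sup_le (fun x hx => ⟨fun z hz => ?_, fun a ha => ?_⟩) fun x hx => ⟨fun z hz => ?_, fun a ha => ?_⟩
      · rw [h.cc hx hz.1]; group
      · rw [h.cc hx ha]; simp
      · rw [h.symm.cc hx hz.2]; group
      · rw [inf_comm]; exact h.symm.com x hx a ha
    have pM : IsPGroup 2 M := pg_of_two fun x hx => ⟨2, by
      have : x * x ∈ A := h.centA hO ▸ mem_cent.2 fun a ha => by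
        have e := hx.1 _ (hx.2 a ha)
        have e2 := h.eA _ (hx.2 a ha).1
        calc a * (x * x) = (x * a * x⁻¹ * a⁻¹) * (x * a * x⁻¹ * a⁻¹) * a * (x * x) := by rw [e2, one_mul]
          _ = x * (x * a * x⁻¹ * a⁻¹) * x⁻¹ * (x * a * x⁻¹ * a⁻¹) * a * (x * x) := by rw [e]
          _ = _ := by group
      rw [← h.eA _ this, show 2 ^ 2 = 2 + 2 from rfl, pow_add, pow_two]⟩
    have MT : M = T := Hall_max h.syl TM le_top (IsPGroup.pi pM)
    have nT : T ⊴ ⊤ := MT ▸ ⟨le_top, le_norm_iff.2 fun g _ x hx => ⟨fun z hz => by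
      rw [show g * x * g⁻¹ * z * (g * x * g⁻¹)⁻¹ = g * (x * (g⁻¹ * z * g) * x⁻¹) * g⁻¹ by group,
        hx.1 _ (conj_mem_of_norm' (nZ g) hz)]; group, fun a ha => by
      rw [show g * x * g⁻¹ * a * (g * x * g⁻¹)⁻¹ * a⁻¹ =
        g * (x * (g⁻¹ * a * g) * x⁻¹ * (g⁻¹ * a * g)⁻¹) * g⁻¹ by group]
      exact conj_mem_of_norm (nZ g) (hx.2 _ (conj_mem_of_norm' (nA g) ha))⟩⟩
    obtain ⟨K, hK⟩ := SchurZassenhaus_split nT h.syl.coprime
    obtain ⟨W, hW, kW⟩ := Maschke_abelem (ea_iff.2 h.eA) (compl_pHall hK.compl h.syl).pi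
      (inf_le_left : A ⊓ B ≤ A) (fun g _ => nA g) fun g _ => nZ g
    refine ⟨W, hW, ?_⟩
    rintro g _ (rfl | ⟨b, hb, rfl⟩)
    · exact .inl (hZ g)
    · obtain ⟨t, ht, k, hk, e⟩ := hK.mem (mem_top (g * b))
      obtain ⟨y, hy, x, hx, rfl⟩ := h.symm.dec ht
      refine .inr ⟨y, hy, ?_⟩
      rw [← cj_mul, e, cj_mul, cj_mul, cj_of_norm (kW hk), cj_of_cent (centS hW.ler (EA.cent h.eA hx))]
  · obtain ⟨k, hk⟩ := not_forall.1 hZ
    have le : ∀ g, BG.cj g (A ⊓ B) ≤ A := fun g => cj_le_of_norm (nA g) inf_le_left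
    have i := (h.disj (nA k)).resolve_left hk
    have c : BG.cj k (A ⊓ B) ≤ C[A ⊓ B] := centSS inf_le_left (le k) (EA.cent h.eA)
    have hW : Dprod (A ⊓ B) (BG.cj k (A ⊓ B)) A := by
      refine ⟨eq_of_card_le (sup_le inf_le_left (le k)) ?_, c, (inf_comm _ _).trans i⟩
      have := card_sup_mul_inf (.inr (cents_norm c))
      rw [inf_comm (A ⊓ B), i, card_bot, card_cj, h.cZ] at this
      rw [h.cA]; omega
    have key : ∀ g, BG.cj g (A ⊓ B) = A ⊓ B ∨ ∃ b ∈ B, BG.cj g (A ⊓ B) = BG.cj b (BG.cj k (A ⊓ B)) := fun g => by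
      refine (h.disj (nA g)).imp_right fun e => ?_
      obtain ⟨z, hz, z1⟩ := h.exZ
      have m := conj_mem_cj g hz
      have z2 : g * z * g⁻¹ ≠ 1 := by simpa using z1
      obtain ⟨b, hb, m2⟩ := h.conj_eq hW (le g m) fun c => z2 (mem_bot.1 (e ▸ ⟨m, le g m, c⟩))
      refine ⟨b, hb, ?_⟩
      rw [← cj_mul] at m2 ⊢
      rcases h.disj (nA ((b * k)⁻¹ * g)) with d | d
      · rw [cj_mul, cj_eq_iff, inv_inv] at d; exact d
      · rw [cj_mul, ← cj_eq_bot (g := b * k), cj_inf, cj_cj_inv] at d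
        exact absurd (mem_bot.1 (d ▸ ⟨m, m2⟩)) z2
    refine ⟨_, hW, ?_⟩
    rintro g _ (rfl | ⟨b, hb, rfl⟩)
    · exact key g
    · rw [← cj_mul, ← cj_mul]; exact key _

theorem coords {F : Type*} [Field F] [Fintype F] (hF : Fintype.card F = 4) (hW : Dprod (A ⊓ B) W A) :
    ∃ φ : F × F → G, (∀ u v, φ (u + v) = φ u * φ v) ∧ Function.Injective φ ∧ (∀ a, a ∈ A ↔ ∃ v, φ v = a) ∧
      (∀ v, φ v ∈ A ⊓ B ↔ v.2 = 0) ∧ (∀ v, φ v ∈ W ↔ v.1 = 0) ∧
      (∀ b ∈ B, ∃ c, ∀ s t, b * φ (s, t) * b⁻¹ = φ (s + c * t, t)) ∧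
      ∀ c, ∃ b ∈ B, ∀ s t, b * φ (s, t) * b⁻¹ = φ (s + c * t, t) := by
  obtain ⟨aa, -⟩ := four_elts hF
  have cW : #W = 4 := by have := hW.card; rw [h.cZ, h.cA] at this; omega
  have : Nontrivial W := Finite.one_lt_card_iff_nontrivial.1 (by omega)
  have : IsKleinFour W := ⟨cW, (Monoid.exponent_eq_prime_iff Nat.prime_two).2 fun x hx =>
    orderOf_eq_prime (Subtype.ext (by simpa [pow_two] using h.eA _ (hW.ler x.2))) hx⟩
  have : IsKleinFour (Multiplicative F) := ⟨by simp [hF], (Monoid.exponent_eq_prime_iff Nat.prime_two).2 fun x hx =>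
    orderOf_eq_prime (by rw [pow_two]; exact aa x.toAdd) hx⟩
  obtain ⟨e⟩ : Nonempty (Multiplicative F ≃* W) := IsKleinFour.nonempty_mulEquiv
  obtain ⟨ψ, hψ⟩ : ∃ ψ : F → G, ∀ t, ψ t = e (.ofAdd t) := ⟨_, fun _ => rfl⟩
  have pa : ∀ s t, ψ (s + t) = ψ s * ψ t := fun s t => by rw [hψ, hψ, hψ, ofAdd_add, map_mul, coe_mul]
  have pW : ∀ t, ψ t ∈ W := fun t => hψ t ▸ (e _).2
  have pA : ∀ t, ψ t ∈ A := fun t => hW.ler (pW t)
  have p0 : ψ 0 = 1 := by simp [hψ]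
  have pB : ∀ t, ψ t ∈ B → t = 0 := fun t ht => by
    have : ψ t = 1 := mem_bot.1 (hW.inf ▸ ⟨⟨pA t, ht⟩, pW t⟩)
    rw [hψ, OneMemClass.coe_eq_one, map_eq_one_iff _ e.injective] at this
    exact this
  have ps : ∀ y ∈ W, ∃ t, ψ t = y := fun y hy => ⟨(e.symm ⟨y, hy⟩).toAdd, by simp [hψ]⟩
  obtain ⟨n, hn⟩ : ∃ n : G → F → G, ∀ b t, n b t = b * ψ t * b⁻¹ * (ψ t)⁻¹ := ⟨_, fun _ _ => rfl⟩
  have nZ : ∀ b ∈ B, ∀ t, n b t ∈ A ⊓ B := fun b hb t => by
    rw [hn, inf_comm]; exact h.symm.com b hb _ (pA t)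
  have na : ∀ b ∈ B, ∀ s t, n b (s + t) = n b s * n b t := fun b hb s t => by
    have := h.cc (nZ b hb t).1 (inv_mem (pA s))
    calc _ = b * ψ s * b⁻¹ * (n b t * (ψ s)⁻¹) := by rw [hn, hn, pa]; group
      _ = _ := by rw [this, hn b s]; group
  have nm : ∀ b ∈ B, ∀ c ∈ B, ∀ t, n (b * c) t = n b t * n c t := fun b hb c hc t => by
    have := h.symm.cc hb (nZ c hc t).2
    calc _ = b * n c t * b⁻¹ * n b t := by rw [hn, hn, hn]; group
      _ = _ := by rw [this, mul_inv_cancel_right, h.cc (nZ c hc t).1 (nZ b hb t).1]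
  have n1 : ∀ b ∈ B, b ∉ A → ∀ t, n b t = 1 → t = 0 := fun b hb hA t e =>
    pB t ((h.cen _ (pA t) b hb (by rw [hn, mul_inv_eq_one, mul_inv_eq_iff_eq_mul] at e; exact e.symm)).resolve_right hA)
  have nA : ∀ b ∈ A, ∀ t, n b t = 1 := fun b hb t => by rw [hn, h.cc hb (pA t)]; group
  obtain ⟨b1, hb1, hA1⟩ := SetLike.not_le_iff_exists.1 h.symm.nle
  have c0 : n b1 0 = 1 := by simp [hn, p0]
  have ci : Function.Injective (n b1) := fun s t e => by
    have := n1 b1 hb1 hA1 (s + t) (by rw [na b1 hb1, e, h.eA _ (nZ b1 hb1 t).1])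
    linear_combination this - aa t
  have cs : ∀ z ∈ A ⊓ B, ∃ s, n b1 s = z := fun z hz => by
    obtain ⟨s, hs⟩ := ((Nat.bijective_iff_injective_and_card
      (fun s => (⟨n b1 s, nZ b1 hb1 s⟩ : (A ⊓ B : Subgroup G)))).2
      ⟨fun s t e => ci (congrArg Subtype.val e), by rw [h.cZ, Nat.card_eq_fintype_card, hF]⟩).2 ⟨z, hz⟩
    exact ⟨s, congrArg Subtype.val hs⟩
  have lin : ∀ b ∈ B, ∃ c, ∀ t, n b t = n b1 (c * t) := fun b hb => by
    by_cases k0 : b ∈ A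
    · exact ⟨0, fun t => by rw [nA b k0, zero_mul, c0]⟩
    by_cases k1 : b * b1 ∈ A
    · refine ⟨1, fun t => ?_⟩
      have := nA _ k1 t
      rw [nm b hb b1 hb1, mul_eq_one_iff_eq_inv, h.iA (nZ b1 hb1 t).1] at this
      rw [this, one_mul]
    choose m hm using fun t => cs _ (nZ b hb t)
    refine ⟨m 1, fun t => ?_⟩
    rw [← hm]
    exact congrArg _ (lin_of_fpf hF (AddMonoidHom.mk' m fun s t => ci (by rw [na b1 hb1, hm, hm, hm, na b hb]))
      (fun t e => n1 b hb k0 t (by rw [← hm, show m t = 0 from e, c0]))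
      (fun t e => n1 _ (mul_mem hb hb1) k1 t (by
        rw [nm b hb b1 hb1, ← hm, show m t = t from e, h.eA _ (nZ b1 hb1 t).1])) t)
  have act : ∀ b ∈ B, ∀ c, (∀ t, n b t = n b1 (c * t)) → ∀ s t,
      b * (n b1 s * ψ t) * b⁻¹ = n b1 (s + c * t) * ψ t := fun b hb c hc s t => by
    rw [na b1 hb1, ← hc, hn b, ← mul_assoc, h.symm.cc hb (nZ b1 hb1 s).2]; group
  have add : ∀ u v : F × F, n b1 (u + v).1 * ψ (u + v).2 = n b1 u.1 * ψ u.2 * (n b1 v.1 * ψ v.2) := fun u v => by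
    rw [Prod.fst_add, Prod.snd_add, na b1 hb1, pa, mul_assoc, mul_assoc, ← mul_assoc (ψ _),
      h.cc (pA _) (nZ b1 hb1 _).1, mul_assoc]
  have mZ : ∀ v : F × F, n b1 v.1 * ψ v.2 ∈ A ⊓ B ↔ v.2 = 0 := fun v => by
    rw [mul_mem_cancel_left (nZ b1 hb1 _)]
    exact ⟨fun k => pB _ k.2, fun k => by rw [k, p0]; exact one_mem _⟩
  have mW : ∀ v : F × F, n b1 v.1 * ψ v.2 ∈ W ↔ v.1 = 0 := fun v => by
    rw [mul_mem_cancel_right (pW _)]
    exact ⟨fun k => n1 b1 hb1 hA1 _ (mem_bot.1 (hW.inf ▸ ⟨nZ b1 hb1 _, k⟩)), fun k => by rw [k, c0]; exact one_mem _⟩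
  refine ⟨fun v => n b1 v.1 * ψ v.2, add, fun u v e => ?_, fun a => ⟨fun ha => ?_, ?_⟩, mZ, mW,
    fun b hb => (lin b hb).imp fun c hc => act b hb c hc, fun c => ?_⟩
  · have k : n b1 (u + v).1 * ψ (u + v).2 = 1 := by
      rw [add, show n b1 u.1 * ψ u.2 = _ from e, h.eA _ (mul_mem (nZ b1 hb1 _).1 (pA _))]
    have k1 := (mZ _).1 (k ▸ one_mem _)
    have k2 := (mW _).1 (k ▸ one_mem _)
    exact Prod.ext (by linear_combination k2 - aa v.1 - Prod.fst_add u v)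
      (by linear_combination k1 - aa v.2 - Prod.snd_add u v)
  · obtain ⟨z, hz, y, hy, rfl⟩ := hW.sdprod.mem ha
    obtain ⟨s, rfl⟩ := cs z hz
    obtain ⟨t, rfl⟩ := ps y hy
    exact ⟨(s, t), rfl⟩
  · rintro ⟨v, rfl⟩; exact mul_mem (nZ b1 hb1 _).1 (pA _)
  · obtain ⟨b, hb, e⟩ := h.surj (pA 1) (fun k => one_ne_zero (pB 1 k)) (nZ b1 hb1 c)
    obtain ⟨c', hc⟩ := lin b hb
    obtain rfl : c' = c := ci (by
      rw [← mul_one c', ← hc, ← h.iA (nZ b1 hb1 c).1, ← e, hn]; group)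
    exact ⟨b, hb, act b hb _ hc⟩

theorem aff [A.Normal] (hO : oddCore G = ⊥) {F : Type*} [Field F] [Fintype F] (hF : Fintype.card F = 4) :
    ∃ f : G →* GL (Fin 3) F ⧸ center (GL (Fin 3) F), Function.Injective f := by
  have := Nat.fact_prime_two
  obtain ⟨aa, w, ww, w0, w1, hw⟩ := four_elts hF
  obtain ⟨W, hW, sp⟩ := h.exists_spread hO
  obtain ⟨φ, pa, pi, pA, pZ, pW, pb, pc⟩ := h.coords hF hW
  obtain ⟨L, hL⟩ := h.exists_compl
  have mA : ∀ v, φ v ∈ A := fun v => (pA _).2 ⟨v, rfl⟩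
  have p0 : φ 0 = 1 := mul_left_cancel (a := φ 0) (by rw [← pa, add_zero, mul_one])
  choose σ0 hσ0 using fun g v => (pA _).1 (‹A.Normal›.conj_mem _ (mA v) g)
  obtain ⟨σ, hσ⟩ : ∃ σ : G → F × F →+ F × F, ∀ g v, φ (σ g v) = g * φ v * g⁻¹ :=
    ⟨fun g => .mk' (σ0 g) fun u v => pi (by rw [pa, hσ0, hσ0, hσ0, pa]; group), hσ0⟩
  have σm : ∀ g k v, σ (g * k) v = σ g (σ k v) := fun g k v => pi (by rw [hσ, hσ, hσ]; group)
  have σ1 : ∀ v, σ 1 v = v := fun v => pi (by rw [hσ]; group)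
  have ln : ∀ b c, (∀ s t, b * φ (s, t) * b⁻¹ = φ (s + c * t, t)) → ∀ v, φ v ∈ BG.cj b W ↔ v.1 = c * v.2 := by
    intro b c e ⟨s, t⟩
    have := e (s + c * t) t
    rw [add_assoc, aa, add_zero] at this
    rw [← this, conj_mem_cj_iff, pW]
    exact ⟨fun k => by linear_combination k - aa (c * t), fun k => by linear_combination k + aa (c * t)⟩
  have cl : ∀ X, (X = A ⊓ B ∨ ∃ b ∈ B, X = BG.cj b W) → ∀ v, φ v ∈ X → φ (w • v) ∈ X := by
    rintro _ (rfl | ⟨b, hb, rfl⟩) v hv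
    · rw [pZ] at hv ⊢; simp [hv]
    · obtain ⟨c, hc⟩ := pb b hb
      rw [ln b c hc] at hv ⊢
      simp only [Prod.smul_fst, Prod.smul_snd, smul_eq_mul, hv]; ring
  have semi : ∀ g, ∃ l : F, ∀ v, σ g (l • v) = w • σ g v := fun g => by
    have k : ∀ X, (X = A ⊓ B ∨ ∃ b ∈ B, X = BG.cj b W) → ∀ v, φ v ∈ X → φ (σ g⁻¹ (w • σ g v)) ∈ X := by
      intro X hX v hv
      have := cl _ (sp g X hX) (σ g v) (hσ g v ▸ conj_mem_cj g hv)
      rw [hσ, inv_inv]; exact mem_cj.1 this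
    obtain ⟨l, hl⟩ := scal_of_lines ((σ g⁻¹).comp ((DistribSMul.toAddMonoidHom _ w).comp (σ g)))
      (fun v hv => (pZ _).1 (k _ (.inl rfl) v ((pZ _).2 hv))) fun c v hv => by
        obtain ⟨b, hb, e⟩ := pc c
        exact (ln b c e _).1 (k _ (.inr ⟨b, hb, rfl⟩) v ((ln b c e _).2 hv))
    exact ⟨l, fun v => by rw [← hl, ← σ1 (w • _), ← mul_inv_cancel g, σm]; rfl⟩
  have σi : ∀ g, Function.Injective (σ g) := fun g u v e => by
    rw [← σ1 u, ← σ1 v, ← inv_mul_cancel g, σm, σm, e]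
  let H : Subgroup G :=
    { carrier := {g | ∀ v, σ g (w • v) = w • σ g v}
      one_mem' := fun v => by rw [σ1, σ1]
      mul_mem' := fun {x y} hx hy v => by rw [σm, σm, hy, hx]
      inv_mem' := fun {x} hx v => σi x (by rw [hx, ← σm, ← σm, mul_inv_cancel, σ1, σ1]) }
  have nH : ∀ g, g ∉ H → ∀ v, σ g (w • v) = w • σ g v + σ g v := fun g hg v => by
    obtain ⟨l, hl⟩ := semi g
    have z : σ g (1, 0) ≠ 0 := fun e => by simpa using σi g (e.trans (map_zero _).symm)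
    have a2 : ∀ u : F × F, u + u = 0 := fun u => Prod.ext (aa _) (aa _)
    rcases hw l with rfl | rfl | rfl | rfl
    · exact absurd ((smul_eq_zero.1 ((hl (1, 0)).symm.trans (by simp))).resolve_left w0) z
    · have := hl (1, 0)
      rw [one_smul, ← sub_eq_zero, ← one_smul F (σ g _), smul_smul, ← sub_smul, smul_eq_zero] at this
      exact absurd (this.resolve_left fun e => w1 (by linear_combination -e)) z
    · exact absurd hl hg
    · rw [← hl, add_smul, one_smul, map_add, add_assoc, a2, add_zero]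
  have TH : T ≤ H := h.sup ▸ sup_le (fun a ha v => by
      have k : ∀ v, σ a v = v := fun v => pi (by rw [hσ, h.cc ha (mA v)]; group)
      rw [k, k]) fun b hb ⟨s, t⟩ => by
    obtain ⟨c, hc⟩ := pb b hb
    have k : ∀ s t, σ b (s, t) = (s + c * t, t) := fun s t => pi (by rw [hσ, hc])
    rw [Prod.smul_mk, k, k, Prod.smul_mk]
    simp only [smul_eq_mul]; congr 1; ring
  have hH : ∀ g, g ∈ H := by
    by_contra! k
    obtain ⟨g, hg⟩ := k
    refine h.syl.not_dvd ?_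
    rw [relIndex_top_right, ← index_eq_two_iff_exists_notMem_and.2 ⟨g, hg, fun b => or_iff_not_imp_right.2
      fun hb v => ?_⟩]
    · exact index_dvd_of_le TH
    · rw [σm, σm, nH g hg, map_add, nH b hb, add_assoc]
      exact add_eq_left.2 (Prod.ext (aa _) (aa _))
  have lin : ∀ g (c : F) v, σ g (c • v) = c • σ g v := fun g c v => by
    rcases hw c with rfl | rfl | rfl | rfl
    · simp
    · simp
    · exact hH g v
    · rw [add_smul, add_smul, map_add, hH g v, one_smul, one_smul]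
  have ex : ∀ g (s t : F), σ g (s, t) = s • σ g (1, 0) + t • σ g (0, 1) := fun g s t => by
    rw [← lin, ← lin, ← map_add]; simp
  have : ∀ g, ∃ v, (φ v)⁻¹ * g ∈ L := fun g => by
    obtain ⟨a, ha, l, hl, rfl⟩ := hL.mem (mem_top g)
    obtain ⟨v, rfl⟩ := (pA a).1 ha
    exact ⟨v, by simpa using hl⟩
  choose δ hδ using this
  have uq : ∀ g v, (φ v)⁻¹ * g ∈ L → δ g = v := fun g v hv => pi (by
    have : (φ v)⁻¹ * φ (δ g) ∈ A ⊓ L :=
      ⟨A.mul_mem (A.inv_mem (mA _)) (mA _), by simpa [mul_assoc] using L.mul_mem hv (L.inv_mem (hδ g))⟩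
    rw [hL.inf, mem_bot, inv_mul_eq_one] at this
    exact this.symm)
  have δ1 : δ 1 = 0 := uq 1 0 (by simp [p0])
  have δm : ∀ g k, δ (g * k) = σ g (δ k) + δ g := fun g k => uq _ _ (by
    rw [pa, hσ]
    simpa [mul_assoc] using mul_mem (hδ g) (hδ k))
  let M : G →* Matrix (Fin 3) (Fin 3) F :=
    { toFun := fun g => !![(σ g (1, 0)).1, (σ g (0, 1)).1, (δ g).1; (σ g (1, 0)).2, (σ g (0, 1)).2, (δ g).2; 0, 0, 1]
      map_one' := by
        ext i j
        fin_cases i <;> fin_cases j <;> simp [σ1, δ1]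
      map_mul' := fun g k => by
        have e1 := ex g (σ k (1, 0)).1 (σ k (1, 0)).2
        have e2 := ex g (σ k (0, 1)).1 (σ k (0, 1)).2
        have e3 := ex g (δ k).1 (δ k).2
        simp only [Prod.mk.eta] at e1 e2 e3
        ext i j
        fin_cases i <;> fin_cases j <;>
          simp [Matrix.mul_apply, Fin.sum_univ_three, σm, δm, e1, e2, e3, mul_comm] }
  refine ⟨(QuotientGroup.mk' _).comp M.toHomUnits, (injective_iff_map_eq_one _).2 fun g hg => ?_⟩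
  obtain ⟨c, hc⟩ := Matrix.GeneralLinearGroup.mem_center_iff_val_mem_range_scalar.1
    ((QuotientGroup.eq_one_iff _).1 hg)
  have e := fun i j => congrFun (congrFun hc i) j
  have e22 := e 2 2
  have e00 := e 0 0
  have e01 := e 0 1
  have e02 := e 0 2
  have e10 := e 1 0
  have e11 := e 1 1
  have e12 := e 1 2
  simp [M] at e22 e00 e01 e02 e10 e11 e12
  have gA : g ∈ A := h.centA hO ▸ mem_cent.2 fun a ha => by
    obtain ⟨⟨s, t⟩, rfl⟩ := (pA a).1 ha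
    have : σ g (s, t) = (s, t) := by
      rw [ex]; ext <;> simp [← e00, ← e01, ← e10, ← e11, e22]
    rw [← mul_inv_eq_iff_eq_mul.1 (this ▸ hσ g (s, t)).symm]
  have gL := hδ g
  rw [show δ g = 0 from Prod.ext e02.symm e12.symm, p0, inv_one, one_mul] at gL
  exact mem_bot.1 (hL.inf ▸ ⟨gA, gL⟩)

end Fr

end Cfsg.Agent.L34S
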